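import Cfsg.Agent.H318.Wei.Tor

/-!
# The normaliser of the subgroups of `Z` in `E₇(q)` (helper318)

`norm_Z` : an element of `E₇(q)` normalising a nontrivial subgroup `⟨a⟩` of the cyclic group `Z` of order
`(q + 1) / (2, q - 1)` of the torus of class 18 centralises or inverts `Z`.
-/

set_option autoImplicit false
set_option linter.unusedSectionVars false

namespace Cfsg.Agent.H318.Wei

open CoxeterSystem Cfsg Cfsg.Lie Cfsg.Lie.ChevalleyDatum
open Cfsg.Agent.ChevalleyStructure Cfsg.Agent.ChevalleyStructure.Elts Cfsg.Agent.ChevalleyStructure.CoxeterGeom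
  Cfsg.Agent.ChevalleyStructure.CoxeterGeomTypes Cfsg.Agent.ChevalleyStructure.NPerm
open Cfsg.Agent.Tits.Roots Cfsg.Agent.Tits.Core Cfsg.Agent.Nodes Cfsg.Agent.Nodes.Reps Cfsg.Agent.Nodes.BNOf
  Cfsg.Agent.Nodes.RGDChev Cfsg.Agent.Nodes.Bruhat Cfsg.Agent.Nodes.SubComb Cfsg.Agent.Nodes.Coroot
open Cfsg.Agent.KFacts.RgdField Cfsg.Agent.KFacts.RgdChevCoord Cfsg.Agent.BpExc.TorCent Cfsg.Agent.BpExc.TorChev
open Cfsg.Agent.GpExc.Field Cfsg.Agent.BpExc.Tow Cfsg.Agent.BpExc.TowChev Cfsg.Agent.BpExc.Fr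
  Cfsg.Agent.BpExc.LangFr Cfsg.Agent.LangThm Cfsg.Agent.BpExc Cfsg.Agent.H129 Cfsg.Agent.H129.TorusChar
  Cfsg.Agent.H129.TorusCent Cfsg.Agent.H129.TorusTw Cfsg.Agent.H129.TorusMain Cfsg.Agent.H129.TorusUntw
  Cfsg.Agent.H129.TorAct Cfsg.Agent.H129.WData Cfsg.Agent.H129.UntwTwo Cfsg.Agent.H129.CycT Cfsg.Agent.H129.CycCard
  Cfsg.Agent.H129.RealT Cfsg.Agent.H129.CommDiag Cfsg.Agent.H129.E7Common Cfsg.Agent.H436

universe u

/-- the degree -/
def dl (y : Fin 7 → ℤ) : ℤ := Gq DataE7h.B (-1) y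

theorem dl_add (x y : Fin 7 → ℤ) : dl (x + y) = dl x + dl y := Gq_add _ _ _ _

theorem dl_zero : dl 0 = 0 := Gq_zero _ _

theorem dl_neg (x : Fin 7 → ℤ) : dl (-x) = - dl x := by
  have h := dl_add x (-x)
  rw [add_neg_cancel, dl_zero] at h
  omega

/-- the vector of a root -/
abbrev vv (s : ℕ) : Fin 7 → ℤ := vec chevE7 7 s

theorem tab_vec : vv 93 = sr 0 ∧ vv 73 = sr 2 ∧ vv 69 = sr 3 ∧ vv 64 = sr 5 ∧ vv 67 = sr 4 + sr 5 ∧
    vv 65 = sr 5 + sr 6 ∧ vv 80 = sr 1 + sr 3 + sr 4 := by decide +kernel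

theorem tab_dl : dl (vv 93) = 0 ∧ dl (vv 73) = 0 ∧ dl (vv 69) = 0 ∧ dl (vv 64) = 1 ∧ dl (vv 67) = 0 ∧
    dl (vv 65) = 0 ∧ dl (vv 80) = 0 := by decide +kernel

/-- an additive function vanishing on the roots of degree zero is a multiple of the degree -/
theorem lin_eq (μ : (Fin 7 → ℤ) →+ ℤ) (h : ∀ s < 126, dl (vv s) = 0 → μ (vv s) = 0) (x : Fin 7 → ℤ) :
    μ x = μ (vv 64) * dl x := by
  obtain ⟨v1, v2, v3, v4, v5, v6, v7⟩ := tab_vec
  obtain ⟨d1, d2, d3, d4, d5, d6, d7⟩ := tab_dl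
  have m1 := h 93 (by norm_num) d1
  have m2 := h 73 (by norm_num) d2
  have m3 := h 69 (by norm_num) d3
  have m5 := h 67 (by norm_num) d5
  have m6 := h 65 (by norm_num) d6
  have m7 := h 80 (by norm_num) d7
  rw [v1] at m1 d1
  rw [v2] at m2 d2
  rw [v3] at m3 d3
  rw [v4] at d4 ⊢
  rw [v5] at m5 d5
  rw [v6] at m6 d6
  rw [v7] at m7 d7
  simp only [map_add] at m5 m6 m7
  simp only [dl_add] at d5 d6 d7
  -- agreement on the simple roots
  have key : ∀ i : Fin 7, μ (sr i) = μ (sr 5) * dl (sr i) := by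
    intro i
    have hi : i = 0 ∨ i = 1 ∨ i = 2 ∨ i = 3 ∨ i = 4 ∨ i = 5 ∨ i = 6 := by fin_cases i <;> simp
    rcases hi with rfl | rfl | rfl | rfl | rfl | rfl | rfl
    · rw [m1, d1, mul_zero]
    · have e1 : dl (sr 1 : Fin 7 → ℤ) = 1 := by omega
      rw [e1, mul_one]; omega
    · rw [m2, d2, mul_zero]
    · rw [m3, d3, mul_zero]
    · have e1 : dl (sr 4 : Fin 7 → ℤ) = -1 := by omega
      rw [e1]; omega
    · rw [d4, mul_one]
    · have e1 : dl (sr 6 : Fin 7 → ℤ) = -1 := by omega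
      rw [e1]; omega
  let ν : (Fin 7 → ℤ) →+ ℤ :=
    { toFun := dl, map_zero' := dl_zero, map_add' := dl_add }
  have hx : x = ∑ i, x i • (sr i : Fin 7 → ℤ) := by
    funext j
    rw [Finset.sum_apply, Finset.sum_eq_single j]
    · rw [Pi.smul_apply, sr_self, smul_eq_mul, mul_one]
    · intro i _ hij
      rw [Pi.smul_apply, sr_ne (Ne.symm hij), smul_zero]
    · exact fun h => absurd (Finset.mem_univ j) h
  have h1 : μ x = ∑ i, x i * μ (sr i) := by
    conv_lhs => rw [hx]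
    rw [map_sum]
    exact Finset.sum_congr rfl fun i _ => by rw [map_zsmul, smul_eq_mul]
  have h2 : dl x = ∑ i, x i * dl (sr i) := by
    have : ν x = ∑ i, x i * ν (sr i) := by
      conv_lhs => rw [hx]
      rw [map_sum]
      exact Finset.sum_congr rfl fun i _ => by rw [map_zsmul, smul_eq_mul]
    exact this
  rw [h1, h2, Finset.mul_sum]
  exact Finset.sum_congr rfl fun i _ => by rw [key i]; ring

section Conj

variable {k : Type u} [Field k]

local notation "cs7" => CoxeterMatrix.E₇.toCoxeterSystem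

theorem dl_root {a : Fin 7 → ℤ} (ha : IsRoot cs7 typeE7.isCartan a) : dl a = 0 ∨ dl a = 1 ∨ dl a = -1 := by
  obtain ⟨s, hs, rfl⟩ := (isRoot_iff typeE7 cs7 a).1 ha
  exact val_neg_one ⟨s, hs⟩

/-- **Conjugation of powers.** -/
theorem conj_pm (hk : LocFin k) (p : ℕ) [Fact p.Prime] [CharP k p] {a b c : ↥(chevE7.group k)}
    (ha : a ∈ TT chevE7 k) (hb : b ∈ TT chevE7 k) {η θ : k} {o : ℕ} (hη : IsPrimitiveRoot η o) (ho : 2 ≤ o)
    (hca : ∀ y, cX typeE7 a y = η ^ dl y) (hcb : ∀ y, cX typeE7 b y = θ ^ dl y) {m : ℕ}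
    (hc : c * a = a ^ m * c) : c * b * c⁻¹ = b ∨ c * b * c⁻¹ = b⁻¹ := by
  have := finite_W7
  have H := tow typeE7 cs7 hk p
  have C := coordsL typeE7 cs7 hk p
  rw [← TL_eq typeE7 hk, ← XL_eq typeE7 hk] at C
  have ham : a ^ m ∈ TT chevE7 k := pow_mem ha m
  have ha' : a ∈ TL (Tj typeE7 (k := k)) := by rw [TL_eq typeE7 hk]; exact ha
  have hb' : b ∈ TL (Tj typeE7 (k := k)) := by rw [TL_eq typeE7 hk]; exact hb
  have ham' : a ^ m ∈ TL (Tj typeE7 (k := k)) := by rw [TL_eq typeE7 hk]; exact ham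
  have hcG : c ∈ GG cs7 typeE7.isCartan (TL (Tj typeE7 (k := k))) (XL (Xj typeE7)) := by
    rw [GG_eq_top typeE7 cs7 hk]; exact Subgroup.mem_top c
  obtain ⟨m', hm', w, n, hn, hna, e⟩ := BpExc.Fr.exists_form H C ha' ham' hcG hc
  have hη0 : η ≠ 0 := hη.ne_zero (by omega)
  have hnan : n * a * n⁻¹ = a ^ m := by rw [hna]; group
  -- the degree of `w⁻¹ β`
  have h1 : ∀ β, IsRoot cs7 typeE7.isCartan β → cX typeE7 (a ^ m) β = η ^ dl (rep cs7 typeE7.isCartan w⁻¹ β) := by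
    intro β hβ
    have h3 := C.chi_rp H.nsys hn (hβ.act w⁻¹) ha'
    rw [hnan, ← rep_mul_apply, mul_inv_cancel, map_one, Module.End.one_apply] at h3
    rw [cX_root typeE7 cs7 ham hβ, h3, ← cX_root typeE7 cs7 ha (hβ.act w⁻¹), hca]
  have hone : ∀ β, IsRoot cs7 typeE7.isCartan β → (η ^ dl β = 1 ↔ dl β = 0) := by
    intro β hβ
    constructor
    · intro h
      have h3 := (hη.zpow_eq_one_iff_dvd _).1 h
      rcases dl_root hβ with h4 | h4 | h4
      · exact h4
      · exfalso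
        rw [h4] at h3
        have := Int.le_of_dvd (by norm_num) h3
        omega
      · exfalso
        rw [h4, dvd_neg] at h3
        have := Int.le_of_dvd (by norm_num) h3
        omega
    · intro h
      rw [h, zpow_zero]
  let μ : (Fin 7 → ℤ) →+ ℤ :=
    { toFun := fun x => dl (rep cs7 typeE7.isCartan w⁻¹ x)
      map_zero' := by rw [map_zero, dl_zero]
      map_add' := fun x y => by rw [map_add, dl_add] }
  have hμ : ∀ x, μ x = dl (rep cs7 typeE7.isCartan w⁻¹ x) := fun _ => rfl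
  have hroot : ∀ s < 126, IsRoot cs7 typeE7.isCartan (vv s) := fun s hs =>
    (isRoot_iff typeE7 cs7 _).2 ⟨s, hs, rfl⟩
  have hlin := lin_eq μ (fun s hs h0 => by
    have h3 := h1 _ (hroot s hs)
    rw [cX_pow typeE7 ha, hca, h0, zpow_zero, one_pow] at h3
    rw [hμ]
    exact (hone _ ((hroot s hs).act w⁻¹)).1 h3.symm)
  have h64 : IsRoot cs7 typeE7.isCartan (vv 64) := hroot 64 (by norm_num)
  have hε : μ (vv 64) = 1 ∨ μ (vv 64) = -1 := by
    rcases dl_root (h64.act w⁻¹) with h3 | h3 | h3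
    · exfalso
      have h4 := hlin (rep cs7 typeE7.isCartan w (vv 64))
      rw [hμ, hμ, h3, zero_mul, ← rep_mul_apply, inv_mul_cancel, map_one, Module.End.one_apply, tab_dl.2.2.2.1] at h4
      exact one_ne_zero h4
    · exact Or.inl h3
    · exact Or.inr h3
  -- the root groups
  have hmb : m' * b = b * m' := by
    have h3 : BpExc.TorCent.MM cs7 typeE7.isCartan (XL (Xj typeE7 (k := k))) (ch typeE7) (a ^ m) ≤
        Subgroup.centralizer {b} := by
      refine RGD.Sup_le fun β hβ => ?_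
      have hβr : IsRoot cs7 typeE7.isCartan β := hβ.1
      refine X_le_centralizer C hb' ⟨hβr, ?_⟩
      have h4 : cX typeE7 (a ^ m) β = 1 := by rw [cX_root typeE7 cs7 ham hβr]; exact hβ.2
      rw [h1 β hβr, hone _ (hβr.act w⁻¹), ← hμ, hlin β] at h4
      have h5 : dl β = 0 := by
        rcases hε with h | h <;> rw [h] at h4 <;> omega
      rw [← cX_root typeE7 cs7 hb hβr, hcb, h5, zpow_zero]
    have h4 := h3 hm'
    rw [Subgroup.mem_centralizer_singleton_iff] at h4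
    exact h4
  -- the Weyl group part
  have hnb : n * b * n⁻¹ ∈ TT chevE7 k := by
    have h3 := (Subgroup.mem_normalizer_iff.1 hn.mem_normalizer b).1 hb'
    rwa [TL_eq typeE7 hk] at h3
  have h5 : ∀ β, IsRoot cs7 typeE7.isCartan β → cX typeE7 (n * b * n⁻¹) β = θ ^ (μ (vv 64) * dl β) := by
    intro β hβ
    have h3 := C.chi_rp H.nsys hn (hβ.act w⁻¹) hb'
    rw [← rep_mul_apply, mul_inv_cancel, map_one, Module.End.one_apply] at h3
    rw [cX_root typeE7 cs7 hnb hβ, h3, ← cX_root typeE7 cs7 hb (hβ.act w⁻¹), hcb, ← hμ, hlin β]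
  have h6 : n * b * n⁻¹ = b ∨ n * b * n⁻¹ = b⁻¹ := by
    rcases hε with h | h
    · left
      refine cX_inj typeE7 hnb hb fun i => ?_
      rw [h5 _ (isRoot_sr cs7 typeE7.isCartan i), h, one_mul, hcb]
    · right
      refine cX_inj typeE7 hnb (inv_mem hb) fun i => ?_
      rw [h5 _ (isRoot_sr cs7 typeE7.isCartan i), h]
      have h7 : cX typeE7 b (sr i) * cX typeE7 b⁻¹ (sr i) = 1 := by
        rw [← cX_mul typeE7 hb (inv_mem hb), mul_inv_cancel, cX_one]
      rw [hcb] at h7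
      rw [neg_one_mul, zpow_neg]
      exact (eq_inv_of_mul_eq_one_right h7).symm
  rw [e]
  have h7 : m' * n * b * (m' * n)⁻¹ = m' * (n * b * n⁻¹) * m'⁻¹ := by group
  rw [h7]
  rcases h6 with h | h
  · left
    rw [h, hmb]; group
  · right
    rw [h]
    have h8 : m' * b⁻¹ = b⁻¹ * m' := by
      calc m' * b⁻¹ = b⁻¹ * (b * m') * b⁻¹ := by group
        _ = b⁻¹ * (m' * b) * b⁻¹ := by rw [hmb]
        _ = b⁻¹ * m' := by group
    rw [h8]; group

end Conj

variable {F : Type u} [Field F] [Fintype F] {q : ℕ}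

/-- **The normaliser of a nontrivial subgroup of `Z`.** -/
theorem norm_Z (hq : Fintype.card F = q) {r : ℕ} (hr : Prim q 18 r) {x : ↥(chevE7.group F)} (hx : orderOf x = r)
    {a h b : ↥(chevE7.group F)} (ha : Commute a x) (ha1 : a ≠ 1) (haq : orderOf a ∣ q + 1)
    (hh : h * a * h⁻¹ ∈ Subgroup.zpowers a) (hb : Commute b x) (hbq : orderOf b ∣ q + 1) :
    h * b * h⁻¹ = b ∨ h * b * h⁻¹ = b⁻¹ := by
  obtain ⟨g, t, u, ht, hu, hcX, htN, hall⟩ := diag_E7 hq hr hx
  obtain ⟨j, hj⟩ := hall a ha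
  obtain ⟨j', hj'⟩ := hall b hb
  obtain ⟨p, e, hpF, hpc, hpk, he, hqp, hk⟩ := exists_closure hq
  set E := emb (D := chevE7) typeE7.inList (algebraMap F (AlgebraicClosure F)) with hE
  have hEi : Function.Injective E := emb_injective typeE7.inList _
  have hfin : Finite ↥(chevE7.group F) := inferInstance
  -- orders
  have hord : ∀ (y : ↥(chevE7.group F)) (i : ℕ), E y = g * t ^ i * g⁻¹ → orderOf (t ^ i) = orderOf y := by
    intro y i hy
    have h1 : orderOf (E y) = orderOf y := orderOf_injective E hEi y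
    have h2 : g * t ^ i * g⁻¹ = MulAut.conj g (t ^ i) := rfl
    rw [← h1, hy, h2]
    exact (orderOf_injective (MulAut.conj g).toMonoidHom (MulAut.conj g).injective (t ^ i)).symm
  have hval : ∀ i : ℕ, orderOf (t ^ i) ∣ q + 1 → ∀ y, cX typeE7 (t ^ i) y = (u ^ i) ^ dl y := by
    intro i hi y
    have h1 : (u ^ i) ^ (q + 1) = 1 := by
      rw [← pow_mul, hu.pow_eq_one_iff_dvd, ← htN]
      apply orderOf_dvd_of_pow_eq_one
      rw [pow_mul]
      exact orderOf_dvd_iff_pow_eq_one.1 hi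
    obtain ⟨c, hc⟩ := gq_neg_one DataE7h.B (t := q + 1) (q := (q : ℤ)) (by push_cast; exact dvd_refl _) y
    have hu0 : u ^ i ≠ 0 := pow_ne_zero _ (hu.ne_zero (by positivity))
    have h2 : Gq DataE7h.B (q : ℤ) y = dl y + ((q + 1 : ℕ) : ℤ) * c := by
      unfold dl
      rw [← hc]; ring
    rw [cX_pow typeE7 ht, hcX, ← zpow_natCast, ← zpow_mul, mul_comm, zpow_mul, zpow_natCast, h2, zpow_add₀ hu0,
      zpow_mul, zpow_natCast, h1, one_zpow, mul_one]
  have hoa := hord a j hj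
  have hob := hord b j' hj'
  have hj0 : j ≠ 0 := by
    rintro rfl
    rw [pow_zero, orderOf_one] at hoa
    exact ha1 (orderOf_eq_one_iff.1 hoa.symm)
  have hη : IsPrimitiveRoot (u ^ j) (orderOf a) := by
    have h1 : orderOf (u ^ j) = orderOf a := by
      rw [← hoa, orderOf_pow' u hj0, orderOf_pow' t hj0, ← hu.eq_orderOf, htN]
    rw [← h1]
    exact IsPrimitiveRoot.orderOf _
  have ho2 : 2 ≤ orderOf a := by
    have h1 := orderOf_pos a
    have h2 : orderOf a ≠ 1 := fun h => ha1 (orderOf_eq_one_iff.1 h)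
    omega
  -- the conjugating element
  obtain ⟨m, hm⟩ := (isOfFinOrder_of_finite a).mem_powers_iff_mem_zpowers.2 hh
  have hm' : a ^ m = h * a * h⁻¹ := hm
  have hc : (g⁻¹ * E h * g) * t ^ j = (t ^ j) ^ m * (g⁻¹ * E h * g) := by
    have h1 : E h * E a = E a ^ m * E h := by
      rw [← map_mul, ← map_pow, hm', ← map_mul]
      congr 1
      group
    have h2 : t ^ j = g⁻¹ * E a * g := by rw [hj]; group
    have h3 : (t ^ j) ^ m = g⁻¹ * E a ^ m * g := by
      rw [h2]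
      have := conj_pow (a := g⁻¹) (b := E a) (i := m)
      rw [inv_inv] at this
      exact this
    rw [h3]
    nth_rewrite 1 [h2]
    calc g⁻¹ * E h * g * (g⁻¹ * E a * g) = g⁻¹ * (E h * E a) * g := by group
      _ = g⁻¹ * (E a ^ m * E h) * g := by rw [h1]
      _ = _ := by group
  have h4 := conj_pm hk p (pow_mem ht j) (pow_mem ht j') hη ho2 (hval j (by rw [hoa]; exact haq))
    (hval j' (by rw [hob]; exact hbq)) hc
  have e1 : E (h * b * h⁻¹) = g * ((g⁻¹ * E h * g) * t ^ j' * (g⁻¹ * E h * g)⁻¹) * g⁻¹ := by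
    rw [map_mul, map_mul, map_inv, hj']; group
  rcases h4 with h4 | h4
  · left
    apply hEi
    rw [e1, h4, hj']
  · right
    apply hEi
    rw [e1, h4, map_inv, hj']; group

end Cfsg.Agent.H318.Wei
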