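import Cfsg.Agent.H943.E7V.AdmMain
import Cfsg.Agent.H540.E72.Fix
import Cfsg.Agent.ChevStructure.FieldMap

/-!
# No group `7³ : 19` in `E₇(2)` (helper318)

`no_seven` : an elementary abelian subgroup of order `7³` of `E₇(2)` is not normalised by an element of order 19 without
fixed points in it (the 56-dimensional module).
-/

set_option autoImplicit false

namespace Cfsg.Agent.H318.Wei

open Cfsg Cfsg.Agent.H943.E7V Cfsg.Agent.H540.E72

section Count

variable {G : Type*} [Group G] [Finite G]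

/-- the number of elements `a ≠ 1` of `R` with `t a = v` is divisible by `19` -/
theorem dvd_count (t : G → ℤ) (ht : ∀ g h : G, t (g * h * g⁻¹) = t h) (R : Subgroup G) {y : G} (hy : orderOf y = 19)
    (hyR : y ∈ Subgroup.normalizer (R : Set G)) (hfix : ∀ a ∈ R, Commute y a → a = 1) (v : ℤ) :
    19 ∣ Nat.card {a : G // a ∈ R ∧ a ≠ 1 ∧ t a = v} := by
  have h19 : Fact (Nat.Prime 19) := ⟨by norm_num⟩
  have hle : Subgroup.zpowers y ≤ Subgroup.normalizer (R : Set G) := by rwa [Subgroup.zpowers_le]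
  let act : MulAction (Subgroup.zpowers y) {a : G // a ∈ R ∧ a ≠ 1 ∧ t a = v} :=
    { smul := fun g a => ⟨g * a * (g : G)⁻¹, (Subgroup.mem_normalizer_iff.1 (hle g.2) a).1 a.2.1, by
        intro h
        apply a.2.2.1
        have h2 := congrArg (fun z => (g : G)⁻¹ * z * g) h
        simpa [mul_assoc] using h2, by rw [ht]; exact a.2.2.2⟩
      one_smul := fun a => by
        apply Subtype.ext
        show ((1 : Subgroup.zpowers y) : G) * a * ((1 : Subgroup.zpowers y) : G)⁻¹ = a
        simp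
      mul_smul := fun g h a => by
        apply Subtype.ext
        show ((g * h : Subgroup.zpowers y) : G) * a * ((g * h : Subgroup.zpowers y) : G)⁻¹ =
          g * (h * a * (h : G)⁻¹) * (g : G)⁻¹
        rw [Subgroup.coe_mul]
        group }
  have hP : IsPGroup 19 (Subgroup.zpowers y) := IsPGroup.of_card (n := 1) (by rw [Nat.card_zpowers, hy, pow_one])
  have h1 := hP.card_modEq_card_fixedPoints {a : G // a ∈ R ∧ a ≠ 1 ∧ t a = v}
  have h2 : Nat.card (MulAction.fixedPoints (Subgroup.zpowers y) {a : G // a ∈ R ∧ a ≠ 1 ∧ t a = v}) = 0 := by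
    rw [Nat.card_eq_zero]
    left
    refine ⟨fun a => ?_⟩
    have h3 := congrArg Subtype.val (a.2 ⟨y, Subgroup.mem_zpowers y⟩)
    have h4 : y * (a.1 : G) * y⁻¹ = (a.1 : G) := h3
    exact a.1.2.2.1 (hfix _ a.1.2.1 (by rwa [mul_inv_eq_iff_eq_mul] at h4))
  rw [h2] at h1
  exact (Nat.modEq_zero_iff_dvd).1 h1

theorem no_seven (hA : Adm G) (R : Subgroup G) (h7 : ∀ a ∈ R, a ^ 7 = 1) (hcard : Nat.card R = 343) {y : G}
    (hy : orderOf y = 19) (hyR : y ∈ Subgroup.normalizer (R : Set G)) (hfix : ∀ a ∈ R, Commute y a → a = 1) : False := by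
  classical
  obtain ⟨t, ht⟩ := exists_tr hA
  have : Fintype R := Fintype.ofFinite _
  have ho : ∀ k ∈ R, k ≠ 1 → orderOf k = 7 := by
    intro k hk h1
    have h2 := orderOf_dvd_of_pow_eq_one (h7 k hk)
    rcases (Nat.dvd_prime (by norm_num)).1 h2 with h | h
    · exact absurd (orderOf_eq_one_iff.1 h) h1
    · exact h
  obtain ⟨d, hd, hsum⟩ := ht.fix' R (by rw [hcard]; norm_num) fun k hk => by
    by_cases h1 : k = 1
    · left; rw [h1, orderOf_one]
    · right; right; right; left; exact ho k hk h1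
  rw [hcard] at hsum
  set A := Finset.univ.filter (fun k : R => (k : G) ≠ 1 ∧ t k = 14) with hAd
  set B := Finset.univ.filter (fun k : R => (k : G) ≠ 1 ∧ t k = -7) with hBd
  have hcA : ∀ v : ℤ, (Finset.univ.filter (fun k : R => (k : G) ≠ 1 ∧ t k = v)).card =
      Nat.card {a : G // a ∈ R ∧ a ≠ 1 ∧ t a = v} := by
    intro v
    rw [← Fintype.card_coe, ← Nat.card_eq_fintype_card]
    refine Nat.card_congr ⟨fun k => ⟨k.1, k.1.2, (Finset.mem_filter.1 k.2).2⟩,
      fun a => ⟨⟨a.1, a.2.1⟩, Finset.mem_filter.2 ⟨Finset.mem_univ _, a.2.2⟩⟩, fun k => rfl, fun a => rfl⟩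
  obtain ⟨a, ha⟩ : 19 ∣ A.card := by rw [hAd, hcA]; exact dvd_count t ht.conj R hy hyR hfix 14
  obtain ⟨b, hb⟩ : 19 ∣ B.card := by rw [hBd, hcA]; exact dvd_count t ht.conj R hy hyR hfix (-7)
  have h1 : ∑ k : R, t (k : G) = 56 + 14 * (A.card : ℤ) - 7 * (B.card : ℤ) := by
    have h2 : ∀ k : R, t (k : G) = (if (k : G) = 1 then 56 else 0) + 14 * (if (k : G) ≠ 1 ∧ t k = 14 then 1 else 0) -
        7 * (if (k : G) ≠ 1 ∧ t k = -7 then 1 else 0) := by
      intro k
      by_cases h3 : (k : G) = 1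
      · simp [h3, ht.one]
      · rcases ht.seven k (ho k k.2 h3) with h4 | h4 | h4 <;> simp [h3, h4]
    rw [Finset.sum_congr rfl fun k _ => h2 k, Finset.sum_sub_distrib, Finset.sum_add_distrib, ← Finset.mul_sum,
      ← Finset.mul_sum, Finset.sum_boole, Finset.sum_boole, Finset.sum_ite]
    have h3 : (Finset.univ.filter (fun k : R => (k : G) = 1)) = {1} := by
      ext k
      simp
    rw [h3]
    simp [hAd, hBd]
  have h2 : A.card + B.card ≤ 342 := by
    have h3 : Disjoint A B := by
      rw [Finset.disjoint_left]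
      intro k hk hk'
      have h4 := (Finset.mem_filter.1 hk).2.2
      have h5 := (Finset.mem_filter.1 hk').2.2
      omega
    have h4 : A ∪ B ⊆ Finset.univ.erase 1 := by
      intro k hk
      rw [Finset.mem_erase]
      refine ⟨fun h => ?_, Finset.mem_univ _⟩
      rcases Finset.mem_union.1 hk with h5 | h5
      · exact (Finset.mem_filter.1 h5).2.1 (by rw [h]; rfl)
      · exact (Finset.mem_filter.1 h5).2.1 (by rw [h]; rfl)
    have h5 := Finset.card_le_card h4
    rw [Finset.card_union_of_disjoint h3, Finset.card_erase_of_mem (Finset.mem_univ _), Finset.card_univ,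
      ← Nat.card_eq_fintype_card, hcard] at h5
    exact h5
  rw [h1, ha, hb] at hsum
  rw [ha, hb] at h2
  push_cast at hsum
  omega

end Count

/-- `E₇(2)` -/
theorem adm_E7 {F : Type*} [Field F] [Fintype F] (hF : Fintype.card F = 2) : Adm ↥(Cfsg.Lie.chevE7.group F) := by
  have e : F ≃+* ZMod 2 := by
    have : Fintype (ZMod 2) := inferInstance
    have hp : CharP F 2 := by
      obtain ⟨p, hp⟩ := CharP.exists F
      have h1 : Fact p.Prime := ⟨CharP.char_is_prime F p⟩
      obtain ⟨n, -, h2⟩ := FiniteField.card F p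
      rw [hF] at h2
      have h3 : p ∣ 2 := by rw [h2]; exact dvd_pow_self p n.pos.ne'
      have h4 := (Nat.prime_dvd_prime_iff_eq h1.out Nat.prime_two).1 h3
      rwa [h4] at hp
    exact FiniteField.ringEquivOfCardEq (by rw [hF, ZMod.card])
  let f := Cfsg.Agent.ChevStructure.FieldMap.groupEquivOfRingEquiv Cfsg.Lie.chevE7 e
  exact Adm.comap Cfsg.Agent.H943.E7V.AdmMain.adm f.toMonoidHom f.injective

end Cfsg.Agent.H318.Wei
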