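import Cfsg.Agent.H129.E7Common

/-!
# The torus of class 18 of `E₇(q)` in diagonal form (helper318)

* `diag_all` : the elements commuting with an element of isolated prime order are simultaneously conjugate, over the
  algebraic closure, to powers of one element `t` of the diagonal torus with `α(t) = u ^ Gq α`;
* `diag_E7` : the case of the class 18 of `E₇(q)`.
-/

set_option autoImplicit false
set_option linter.unusedSectionVars false

namespace Cfsg.Agent.H318.Wei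

open CoxeterSystem Cfsg Cfsg.Lie Cfsg.Lie.ChevalleyDatum
open Cfsg.Agent.ChevalleyStructure Cfsg.Agent.ChevalleyStructure.Elts Cfsg.Agent.ChevalleyStructure.CoxeterGeom
  Cfsg.Agent.ChevalleyStructure.CoxeterGeomTypes Cfsg.Agent.ChevalleyStructure.NPerm
open Cfsg.Agent.Tits.Roots Cfsg.Agent.Tits.Core Cfsg.Agent.Nodes Cfsg.Agent.Nodes.Reps Cfsg.Agent.Nodes.BNOf
  Cfsg.Agent.Nodes.RGDChev Cfsg.Agent.Nodes.Bruhat Cfsg.Agent.Nodes.SubComb Cfsg.Agent.Nodes.Coroot
open Cfsg.Agent.KFacts.RgdField Cfsg.Agent.KFacts.RgdChevCoord Cfsg.Agent.BpExc.TorCent Cfsg.Agent.BpExc.TorChev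
open Cfsg.Agent.GpExc.Field Cfsg.Agent.BpExc.Tow Cfsg.Agent.BpExc.TowChev Cfsg.Agent.BpExc.Fr
  Cfsg.Agent.BpExc.LangFr Cfsg.Agent.LangThm Cfsg.Agent.BpExc Cfsg.Agent.H129 Cfsg.Agent.H129.TorusChar
  Cfsg.Agent.H129.TorusCent Cfsg.Agent.H129.TorusTw Cfsg.Agent.H129.TorusMain Cfsg.Agent.H129.TorusUntw
  Cfsg.Agent.H129.TorAct Cfsg.Agent.H129.WData Cfsg.Agent.H129.UntwTwo Cfsg.Agent.H129.CycT Cfsg.Agent.H129.CycCard
  Cfsg.Agent.H129.RealT Cfsg.Agent.H129.CommDiag Cfsg.Agent.H129.E7Common Cfsg.Agent.H436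

universe u

section Main

variable {D : ChevalleyDatum} {l : ℕ} {M : CoxeterMatrix (Fin l)} (hp : IsType D l M)
  {W : Type*} [Group W] (cs : CoxeterSystem M W)

include hp cs in
/-- **The elements commuting with an element of isolated prime order.** -/
theorem diag_all [Finite W] (hl : 0 < l) {F : Type u} [Field F] [Fintype F] {q : ℕ} (hq : Fintype.card F = q)
    {d' : ℕ} {B' : Fin l → Fin l → ℤ} (hB : InvC D l d' B') (hd' : d' ≠ 0)
    {A : Mat l} (hA : ∀ i j, A i j = cartanOf D l i j) {L : List (Fin l × Mat l)} (hL : ChainOK A L)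
    {V B : Mat l} {c : Fin l → ℤ} (hcyc : CycOK l (hd L) V B c) {m : ℕ} {R : Fin m → Fin l → ℤ} {prv dep : ℕ → ℕ}
    (hR : RootOK D l (hd L) R prv dep) {N : ℕ} (hfN : fN c (q : ℤ) = N) (hqN : q.Coprime N) {d : ℕ}
    (hdd : d = d' ∨ d = 1 ∧ ∀ a : F, ∃ b : F, b ^ d' = a) {r : ℕ} (hr : r.Prime) (hrN : r ∣ N) (hrd : ¬ r ∣ d)
    (hrW : ¬ r ∣ Nat.card W) (hG : ∀ s, ¬ (r : ℤ) ∣ Gq B (q : ℤ) (R s)) {x : ↥(D.group F)} (hx : orderOf x = r) :
    ∃ (g t : ↥(D.group (AlgebraicClosure F))) (u : AlgebraicClosure F), t ∈ TT D (AlgebraicClosure F) ∧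
      IsPrimitiveRoot u N ∧ (∀ y, cX hp t y = u ^ Gq B (q : ℤ) y) ∧ orderOf t = N ∧
      ∀ a, Commute a x → ∃ j : ℕ,
        emb hp.inList (algebraMap F (AlgebraicClosure F)) a = g * t ^ j * g⁻¹ := by
  have hlin := lin_refl hp cs hA hL
  have hc := cyc_of hlin hcyc
  obtain ⟨p, e, hpF, hpc, hpk, he, rfl, hk⟩ := exists_closure hq
  have hpN : ¬ p ∣ N := fun h1 => by
    have h2 : p ∣ Nat.gcd (p ^ e) N := Nat.dvd_gcd (dvd_pow_self p he.ne') h1
    rw [hqN] at h2
    exact hpF.out.one_lt.ne' (Nat.dvd_one.1 h2)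
  have hN0 : N ≠ 0 := fun h0 => hpN (by rw [h0]; exact dvd_zero p)
  have hd : ∀ y : ↥(D.group (AlgebraicClosure F)), phi D (AlgebraicClosure F) p e y = y →
      y ^ d ∈ (emb hp.inList (algebraMap F (AlgebraicClosure F))).range := by
    intro y hy
    rcases hdd with rfl | ⟨rfl, hF⟩
    · exact fix_pow_range hp cs _ hq hB hd' hy
    · rw [pow_one]
      exact fix_range hp cs _ hq hB hd' hF hy
  have hgood : ∀ a, IsRoot cs hp.isCartan a → ¬ (r : ℤ) ∣ Gq B ((p ^ e : ℕ) : ℤ) a := fun a ha =>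
    not_dvd_G hp cs hlin hc hR hfN hr hrN hqN hG ha
  have he0 : Function.Injective (emb (D := D) hp.inList (algebraMap F (AlgebraicClosure F))) :=
    emb_injective hp.inList _
  have hfix := phi_emb (k := AlgebraicClosure F) hp (algebraMap F (AlgebraicClosure F)) hq
  obtain ⟨n, z, t, u, X⟩ := TD.exists_of (hp := hp) (cs := cs) (hN := nsys_of_locFin hp cs hk p) hl hk he isFrob_phi
    (fr_phi hp cs) hB hd' (w := cs.wordProd (L.map Prod.fst)) hc hfN hpN
  have hord : orderOf (z * t * z⁻¹) = N := by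
    have h3 : z * t * z⁻¹ = MulAut.conj z t := rfl
    rw [h3, ← X.htN]
    exact orderOf_injective (MulAut.conj z).toMonoidHom (MulAut.conj z).injective t
  have hσz : phi D (AlgebraicClosure F) p e z = z * n := by rw [X.hz]; group
  have hσa : phi D (AlgebraicClosure F) p e (z * t * z⁻¹) = z * t * z⁻¹ := by
    rw [map_mul, map_mul, map_inv, hσz]
    calc z * n * phi D (AlgebraicClosure F) p e t * (z * n)⁻¹ =
        z * (n * phi D (AlgebraicClosure F) p e t * n⁻¹) * z⁻¹ := by group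
      _ = z * t * z⁻¹ := by rw [X.hτ]
  have h2 := dvd_card_T0 he0 (hd _ hσa)
  rw [hord] at h2
  have hrT : r ∣ Nat.card ↥(T0 (emb hp.inList (algebraMap F (AlgebraicClosure F))) (z * t * z⁻¹)) :=
    (hr.dvd_mul.1 (hrN.trans h2)).resolve_left hrd
  have : Finite ↥(D.group F) := inferInstance
  obtain ⟨g, hg1, hg2⟩ := centralizer_conj (isCyclic_T0 he0) hr hrT (fun y hy hyr =>
    X.centralizer_le hk p hN0 he0 hfix hr hrW hgood hy hyr) hx
  have hfo : IsOfFinOrder (z * t * z⁻¹) := by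
    rw [← orderOf_pos_iff, hord]
    exact Nat.pos_of_ne_zero hN0
  refine ⟨emb hp.inList (algebraMap F (AlgebraicClosure F)) g⁻¹ * z, t, u, X.ht, X.hu, X.hcX, X.htN,
    fun a hax => ?_⟩
  have haT := (hg2 a).1 (by rw [Subgroup.mem_centralizer_singleton_iff]; exact hax)
  obtain ⟨j, hj⟩ := (hfo.mem_powers_iff_mem_zpowers.2 haT)
  have hj' : (z * t * z⁻¹) ^ j = emb hp.inList (algebraMap F (AlgebraicClosure F)) (g * a * g⁻¹) := hj
  have e1 : emb hp.inList (algebraMap F (AlgebraicClosure F)) (g * a * g⁻¹) = z * t ^ j * z⁻¹ := by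
    rw [← hj', conj_pow]
  refine ⟨j, ?_⟩
  have e2 : emb hp.inList (algebraMap F (AlgebraicClosure F)) a =
      emb hp.inList (algebraMap F (AlgebraicClosure F)) g⁻¹ *
        emb hp.inList (algebraMap F (AlgebraicClosure F)) (g * a * g⁻¹) *
        emb hp.inList (algebraMap F (AlgebraicClosure F)) g := by
    rw [← map_mul, ← map_mul]
    congr 1
    group
  rw [e2, e1, map_inv]
  group

end Main

/-! ### the values of the roots at `-1` -/

theorem val_neg_one : ∀ s : Fin chevE7.nroots, Gq DataE7h.B (-1) (vec chevE7 7 s) = 0 ∨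
    Gq DataE7h.B (-1) (vec chevE7 7 s) = 1 ∨ Gq DataE7h.B (-1) (vec chevE7 7 s) = -1 := by decide +kernel

variable {F : Type u} [Field F] [Fintype F] {q : ℕ}

/-- **The torus of class 18 of `E₇(q)`.** -/
theorem diag_E7 (hq : Fintype.card F = q) {r : ℕ} (hr : Prim q 18 r) {x : ↥(chevE7.group F)} (hx : orderOf x = r) :
    ∃ (g t : ↥(chevE7.group (AlgebraicClosure F))) (u : AlgebraicClosure F), t ∈ TT chevE7 (AlgebraicClosure F) ∧
      IsPrimitiveRoot u ((q + 1) * (q ^ 6 - q ^ 3 + 1)) ∧ (∀ y, cX typeE7 t y = u ^ Gq DataE7h.B (q : ℤ) y) ∧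
      orderOf t = (q + 1) * (q ^ 6 - q ^ 3 + 1) ∧
      ∀ a, Commute a x → ∃ j : ℕ,
        emb typeE7.inList (algebraMap F (AlgebraicClosure F)) a = g * t ^ j * g⁻¹ := by
  have := finite_W7
  have h := prim_eighteen hr
  have hlt := prim_lt hr
  have h0 : q ^ 3 ≤ q ^ 6 := by
    have h1 : 1 ≤ q := by rw [← hq]; exact Fintype.card_pos
    exact Nat.pow_le_pow_right h1 (by norm_num)
  have hm : (((q + 1) * (q ^ 6 - q ^ 3 + 1) : ℕ) : ℤ) = (1 - (q : ℤ) ^ 3 + (q : ℤ) ^ 6) * ((q : ℤ) + 1) := by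
    push_cast [Nat.cast_sub h0]; ring
  refine diag_all typeE7 CoxeterMatrix.E₇.toCoxeterSystem (by norm_num) hq TorusChar.invC_E7 (by norm_num)
    DataE7h.hA DataE7h.chainOK DataE7h.cycOK DataE7h.rootOK (by rw [DataE7h.fN_eq, hm]; ring)
    (UntwData.coprime_of_eq (a := 1 - (q : ℤ) ^ 2 - (q : ℤ) ^ 3 + (q : ℤ) ^ 5 + (q : ℤ) ^ 6) (by rw [hm]; ring))
    (Or.inl rfl) hr.prime (dvd_of_int h hm) (fun h2 => by
      have := Nat.le_of_dvd (by norm_num) h2; omega)
    (not_dvd_W7 hr.prime (by omega) (by omega) (by omega) (by omega)) (fun s hs => ?_) hx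
  rcases DataE7h.dvd_of_G h s hs with h | h
  · exact not_one hr.prime h
  · exact not_prime hr.prime Nat.prime_three (by omega) h

end Cfsg.Agent.H318.Wei
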